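import Cfsg.Agent.Lib.FGS.RkOddB
import Cfsg.Agent.Lib.PGroup.MaxClass

/-! `p`-groups of rank two (`p` odd): the Frattini quotient, and operator groups fixing a central element. -/

set_option autoImplicit false

namespace Cfsg.Lib.ZP

open Subgroup Cfsg.Lib.PGroup Cfsg.Lib.RkOdd
open scoped commutatorElement

variable {p : ℕ} [hp : Fact p.Prime] {G : Type*} [Group G] [Finite G]

/-- Blackburn's trichotomy. -/
theorem rank_two_cases (hp2 : p ≠ 2) (hG : IsPGroup p G) (hr : PRankLE p 2 G) :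
    IsMetacyclic G ∨ (p = 3 ∧ ∃ n, Nat.card G = p ^ (n + 3) ∧ (⊤ : Subgroup G).lowerCentralSeries (n + 1) ≠ ⊥) ∨
      ∃ (V : Subgroup G) (x y z : G), Cfg p V ∧ x ∉ centralizer (V : Set G) ∧ x ^ p = 1 ∧ y ∈ V ∧
        z ∈ centralizer (V : Set G) ∧ (V ⊔ zpowers z) ⊔ zpowers x = ⊤ ∧ ⁅V, (⊤ : Subgroup G)⁆ ⊔ zpowers y = V ∧
        ⁅x, z⁆ ∈ V ∧ (⁅x, z⁆ ∈ ⁅V, (⊤ : Subgroup G)⁆ → ⁅x, z⁆ = 1) := by
  by_cases hc : IsCyclic G
  · obtain ⟨g, hg⟩ := isCyclic_iff_exists_zpowers_eq_top.1 hc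
    exact .inl (isMetacyclic_iff_exists.2 ⟨g, g, le_normalizer (mem_zpowers g), by simp [hg]⟩)
  obtain ⟨V, h⟩ := Cfg.of_rank hp2 hG hr hc
  obtain ⟨n, hn⟩ := IsPGroup.iff_card.1 hG
  by_cases hV : centralizer (V : Set G) = ⊤
  · exact .inl (h.metacyclic_of_top hV)
  have h2 : ¬ n ≤ 2 := fun e => hV (eq_top_iff.2 fun g _ v hv => by
    have := isMulCommutative_of_card_le_sq (hG.to_subgroup ⊤)
      (by rw [card_top, hn]; exact Nat.pow_le_pow_right hp.out.pos e)
    exact setLike_mul_comm (s := (⊤ : Subgroup G)) (mem_top v) (mem_top g))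
  obtain ⟨m, rfl⟩ := Nat.exists_eq_add_of_le' (not_le.1 h2)
  have key : ∀ x ∉ centralizer (V : Set G), x ^ p = 1 → (∀ a ∈ centralizer (V : Set G), ⁅x, a⁆ ∈ V) →
      ∃ (V : Subgroup G) (x y z : G), Cfg p V ∧ x ∉ centralizer (V : Set G) ∧ x ^ p = 1 ∧ y ∈ V ∧
        z ∈ centralizer (V : Set G) ∧ (V ⊔ zpowers z) ⊔ zpowers x = ⊤ ∧ ⁅V, (⊤ : Subgroup G)⁆ ⊔ zpowers y = V ∧
        ⁅x, z⁆ ∈ V ∧ (⁅x, z⁆ ∈ ⁅V, (⊤ : Subgroup G)⁆ → ⁅x, z⁆ = 1) := fun x hx hxp e => by
    obtain ⟨z, h1, h3, -, h4, h5⟩ := h.exists_z hx (m := m + 1) hn e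
    obtain ⟨y, hy, hy'⟩ := SetLike.exists_of_lt (h.Z_lt hx)
    refine ⟨V, x, y, z, h, hx, hxp, hy, h1, eq_top_iff.2 ?_, ?_, e z h1, h5⟩
    · rw [← h.gen hx hn h1 h3 hy fun e => hy' (h4 y hy e), closure_le]
      rintro _ (rfl | rfl | rfl)
      exacts [mem_sup_right (mem_zpowers _), mem_sup_left (mem_sup_left hy), mem_sup_left (mem_sup_right (mem_zpowers _))]
    · refine (eq_or_eq_of_card_eq_prime_mul hp.out le_sup_left (sup_le (h.Z_lt hx).le (zpowers_le.2 hy))
        (by rw [h.cV, h.cardZ hx, sq])).resolve_left fun e => hy' (e.le (mem_sup_right (mem_zpowers y)))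
  by_cases h3 : p = 3
  · rcases h.reduce hn with h1 | h1 | ⟨x, h1, h2, h4⟩
    exacts [.inl h1, .inr (.inl ⟨h3, m, hn, h1.2⟩), .inr (.inr (key x h1 h2 h4))]
  · have := hp.out.two_le
    rcases h.reduce_of_three_lt (by omega) hr with h1 | ⟨x, h1, h2, h4⟩
    exacts [.inl h1, .inr (.inr (key x h1 h2 h4))]

omit [Finite G] in
lemma card_sup_zpowers_le {M : Subgroup G} {x : G} (hx : x ∈ normalizer (M : Set G)) (hxp : x ^ p ∈ M) :
    Nat.card ↥(M ⊔ zpowers x) ≤ p * Nat.card M := by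
  by_cases h : x ∈ M
  · rw [sup_eq_left.2 (zpowers_le.2 h)]
    exact Nat.le_mul_of_pos_left _ hp.out.pos
  · exact (card_sup_zpowers hx h hxp).le

lemma card_le_of_two (hG : IsPGroup p G) (a b : G) :
    Nat.card ↥((frattini G ⊔ zpowers a) ⊔ zpowers b) ≤ p ^ 2 * Nat.card (frattini G) := by
  have : (frattini G ⊔ zpowers a).Normal :=
    Normal.of_commutator_le _ ((commutator_le_frattini hG).trans le_sup_left)
  refine (card_sup_zpowers_le (le_normalizer_of_normal (mem_top b)) (mem_sup_left (pow_mem_frattini hG b))).trans ?_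
  rw [sq, mul_assoc]
  exact Nat.mul_le_mul_left _ (card_sup_zpowers_le (le_normalizer_of_normal (mem_top a)) (pow_mem_frattini hG a))

lemma class_two {V : Subgroup G} {x z : G} (h : Cfg p V) (hx : x ∉ centralizer (V : Set G))
    (hz : z ∈ center G) (ht : (V ⊔ zpowers z) ⊔ zpowers x = ⊤) : ⁅⁅(⊤ : Subgroup G), (⊤ : Subgroup G)⁆, (⊤ : Subgroup G)⁆ = ⊥ := by
  have := h.nV
  have h1 : ∀ {H : Subgroup G}, H ≤ center G → ⁅H, (⊤ : Subgroup G)⁆ = ⊥ := fun h =>
    commutator_eq_bot_iff_le_centralizer.2 (h.trans (center_le_centralizer _))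
  have h2 : ⁅V ⊔ zpowers z, (⊤ : Subgroup G)⁆ ≤ center G := Core.commutator_sup_le le_normalizer_of_normal
    le_normalizer_of_normal (h.Z_le hx) ((h1 (zpowers_le.2 hz)).le.trans bot_le)
  refine h1 ?_
  nth_rw 1 [← ht]
  refine Core.commutator_sup_le le_normalizer_of_normal le_normalizer_of_normal h2 ?_
  rw [commutator_comm, ← ht]
  exact Core.commutator_sup_le le_normalizer_of_normal le_normalizer_of_normal ((commutator_mono le_rfl le_top).trans h2)
    ((commutator_self_eq_bot_iff.2 inferInstance).le.trans bot_le)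

omit [Finite G] in
lemma mem_center_of {V : Subgroup G} {x z u : G} (ht : (V ⊔ zpowers z) ⊔ zpowers x = ⊤)
    (hu : u ∈ centralizer (V : Set G)) (h1 : Commute z u) (h2 : Commute x u) : u ∈ center G :=
  mem_center_iff.2 fun g => mem_centralizer_singleton_iff.1 ((sup_le (sup_le (le_centralizer_iff.1
    (zpowers_le.2 hu) |>.trans (centralizer_le (by simp))) (zpowers_le.2 (mem_centralizer_singleton_iff.2 h1)))
      (zpowers_le.2 (mem_centralizer_singleton_iff.2 h2)) : _ ≤ centralizer {u}) (ht.ge (mem_top g)))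

/-- The Frattini quotient of a `p`-group of rank two. -/
theorem exists_char (hp2 : p ≠ 2) (hG : IsPGroup p G) (hr : PRankLE p 2 G) : ∃ K Z : Subgroup G, K.Characteristic ∧
    Z.Characteristic ∧ IsCyclic Z ∧ frattini G ≤ K ∧ Nat.card K ≤ p ^ 2 * Nat.card (frattini G) ∧ K ⊔ Z = ⊤ := by
  have two : ∀ a b : G, (frattini G ⊔ zpowers a) ⊔ zpowers b = ⊤ → ∃ K Z : Subgroup G, K.Characteristic ∧
      Z.Characteristic ∧ IsCyclic Z ∧ frattini G ≤ K ∧ Nat.card K ≤ p ^ 2 * Nat.card (frattini G) ∧ K ⊔ Z = ⊤ :=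
    fun a b e => ⟨⊤, ⊥, inferInstance, inferInstance, inferInstance, le_top, e ▸ card_le_of_two hG a b, top_sup_eq _⟩
  rcases rank_two_cases hp2 hG hr with h | ⟨-, n, h1, h2⟩ | ⟨V, x, y, z, h, hx, hxp, hy, hz, ht, hV, h1, h2⟩
  · obtain ⟨a, b, -, e⟩ := isMetacyclic_iff_exists.1 h
    exact two a b (eq_top_iff.2 (e.ge.trans (sup_le_sup_right le_sup_right _)))
  · refine ⟨⊤, ⊥, inferInstance, inferInstance, inferInstance, le_top, ?_, top_sup_eq _⟩
    rw [maxClass_frattini h1 h2, maxClass_card_commutator (n := n + 1) h1 h2, card_top, h1, ← pow_add]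
    exact (congrArg _ (by omega)).le
  have := h.nV
  have hZ : ⁅V, (⊤ : Subgroup G)⁆ ≤ frattini G := (commutator_mono le_top le_rfl).trans (commutator_le_frattini hG)
  by_cases e : ⁅x, z⁆ ∈ ⁅V, (⊤ : Subgroup G)⁆
  swap
  · refine two z x (eq_top_iff.2 (ht.ge.trans (sup_le_sup_right (sup_le_sup_right ?_ _) _)))
    rw [← (eq_or_eq_of_card_eq_prime_mul hp.out le_sup_left (sup_le (h.Z_lt hx).le (zpowers_le.2 h1))
      (by rw [h.cV, h.cardZ hx, sq])).resolve_left fun e' => e (e'.le (mem_sup_right (mem_zpowers _)))]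
    exact sup_le hZ (zpowers_le.2 (commutatorElement_mem_frattini hG _ _))
  have hc := mem_center_of ht hz (Commute.refl z) (commutatorElement_eq_one_iff_commute.1 (h2 e))
  have hVK : V ≤ frattini G ⊔ zpowers y := hV.ge.trans (sup_le_sup_right hZ _)
  refine ⟨frattini G ⊔ omegaOne p ⊤, center G, inferInstance, inferInstance, ?_, le_sup_left,
    (card_le_of_le (sup_le (le_sup_left.trans le_sup_left) (omegaOne_le_iff.2 fun w _ hw => ?_))).trans
      (card_le_of_two hG y x), eq_top_iff.2 (ht.ge.trans (sup_le (sup_le ?_ ?_) ?_))⟩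
  · exact isCyclic_of_card_omegaOne_le hp2 (hG.to_subgroup _) ((card_le_of_le (omegaOne_le_iff.2 fun b hb e =>
      h.memZ hx (h.hA b (center_le_centralizer _ hb) e) (mem_center_iff.1 hb x))).trans (h.cardZ hx).le)
  · have ht' : (V ⊔ zpowers x) ⊔ zpowers z = ⊤ := by rw [sup_right_comm, ht]
    obtain ⟨u, hu, k, rfl⟩ := (mem_sup_zpowers_iff (centralizer_le_normalizer _ (center_le_centralizer _ hc))).1
      (ht'.ge (mem_top w))
    have hu' : u ^ p = 1 := pow_eq_one_of_mem_omegaOne_of_class_two (hp.out.odd_of_ne_two hp2) (class_two h hx hc ht)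
      (sup_le (fun v hv => mem_omegaOne (mem_top v) (h.eV.2 v hv)) (zpowers_le.2 (mem_omegaOne (mem_top x) hxp)) hu)
    rw [Commute.mul_pow (mem_center_iff.1 ((center G).zpow_mem hc k) u), hu', one_mul] at hw
    exact mul_mem (sup_le_sup_right hVK _ hu) (mem_sup_left (hVK (h.hA _ (zpow_mem hz k) hw)))
  · exact fun v hv => mem_sup_left (mem_sup_right (mem_omegaOne (mem_top v) (h.eV.2 v hv)))
  · exact zpowers_le.2 (mem_sup_right hc)
  · exact zpowers_le.2 (mem_sup_left (mem_sup_right (mem_omegaOne (mem_top x) hxp)))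

lemma comm_le_of_card {S M N : Subgroup G} (hS : IsPGroup p S) (hM : M ≤ S) (h1 : S ≤ normalizer (M : Set G))
    (h2 : S ≤ normalizer (N : Set G)) (hN : N ≤ M) (hc : Nat.card M ≤ p * Nat.card N) : ⁅M, S⁆ ≤ N := by
  rcases hN.eq_or_lt with rfl | hN'
  · exact le_normalizer_iff_commutator_le_left.1 h2
  obtain ⟨K, -, a2, -, a4, a5⟩ := exists_invariant_card_eq_mul hS hM h2 h1 hN'
  rwa [eq_of_le_of_card_ge a2 (by rwa [a4])] at a5

lemma quad_of_card {S M N : Subgroup G} (hS : IsPGroup p S) (hM : M ≤ S) (h1 : S ≤ normalizer (M : Set G))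
    (h2 : S ≤ normalizer (N : Set G)) (hN : N ≤ M) (hc : Nat.card M ≤ p ^ 2 * Nat.card N) : ⁅⁅M, S⁆, S⁆ ≤ N := by
  have c2 : ⁅N, S⁆ ≤ N := le_normalizer_iff_commutator_le_left.1 h2
  rcases hN.eq_or_lt with rfl | hN'
  · exact (commutator_mono c2 le_rfl).trans c2
  obtain ⟨K, -, a2, a3, a4, a5⟩ := exists_invariant_card_eq_mul hS hM h2 h1 hN'
  exact (commutator_mono (comm_le_of_card hS hM h1 a3 a2 (by rwa [a4, ← mul_assoc, ← sq])) le_rfl).trans a5

/-- A `p`-group acts quadratically on the Frattini quotient of a `p`-group of rank two. -/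
theorem quad_frattini (hp2 : p ≠ 2) {S W : Subgroup G} (hS : IsPGroup p S) (hW : W ≤ S)
    (hn : S ≤ normalizer (W : Set G)) (hr : PRankLE p 2 W) : ⁅⁅W, S⁆, S⁆ ≤ (frattini W).map W.subtype := by
  obtain ⟨K, Z, _, _, h1, h2, h3, h4⟩ := exists_char hp2 (hS.to_le hW) hr
  have n1 := hn.trans (normalizer_le_normalizer_map_subtype (frattini W))
  have n2 := hn.trans (normalizer_le_normalizer_map_subtype K)
  have n3 := hn.trans (normalizer_le_normalizer_map_subtype Z)
  have c1 : ⁅(frattini W).map W.subtype, S⁆ ≤ (frattini W).map W.subtype := le_normalizer_iff_commutator_le_left.1 n1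
  have q := quad_of_card hS ((map_subtype_le _).trans hW) n2 n1 (map_mono h2) (by rwa [card_subtype, card_subtype])
  have hZ : ⁅Z.map W.subtype, S⁆ ≤ (frattini W).map W.subtype := by
    obtain ⟨g, rfl⟩ := (Subgroup.isCyclic_iff_exists_zpowers_eq_top _).1 h1
    refine (commutator_mono le_sup_right le_rfl).trans (comm_le_of_card hS
      (sup_le ((map_subtype_le _).trans hW) ((map_subtype_le _).trans hW)) (le_normalizer_sup n1 n3) n1 le_sup_left ?_)
    rw [MonoidHom.map_zpowers]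
    exact card_sup_zpowers_le (n1 (hW g.2)) (pow_mem_map_subtype_frattini (hS.to_le hW) g.2)
  have n4 : S ≤ normalizer ((⁅K.map W.subtype, S⁆ ⊔ (frattini W).map W.subtype : Subgroup G) : Set G) :=
    le_normalizer_sup (normalizer_commutator_ge_right _ _) n1
  have : ⁅W, S⁆ ≤ ⁅K.map W.subtype, S⁆ ⊔ (frattini W).map W.subtype := by
    nth_rw 1 [← Core.map_subtype_top W, ← h4, Subgroup.map_sup]
    exact Core.commutator_sup_le (((map_subtype_le _).trans hW).trans n4) (((map_subtype_le _).trans hW).trans n4)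
      le_sup_left (hZ.trans le_sup_right)
  exact (commutator_mono this le_rfl).trans (Core.commutator_sup_le
    (((le_normalizer_iff_commutator_le_left.1 n2).trans ((map_subtype_le _).trans hW)).trans n1) le_normalizer q c1)

end Cfsg.Lib.ZP
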