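import Cfsg.Agent.Lib.ZP.Rank2
import Cfsg.Agent.Lib.PGroup.Blackburn
import Cfsg.Agent.Lib.Coprime.Supplement
import Cfsg.Agent.S2792

/-! `p`-groups of rank two (`p` odd) with an operator group fixing a central element of order `p`. -/

set_option autoImplicit false

namespace Cfsg.Lib.ZP

open Subgroup Cfsg.Lib.PGroup Cfsg.Lib.RkOdd
open scoped commutatorElement

variable {p : ℕ} {G : Type*} [Group G] {A : Subgroup (MulAut G)} {y : G}

local notation "𝐋" i => Subgroup.lowerCentralSeries (⊤ : Subgroup G) i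

lemma sign_lcs (φ : MulAut G) (h : ∀ g, φ g * g ∈ commutator G) (i : ℕ) :
    ∀ u ∈ 𝐋 i, φ u * (u ^ ((-1 : ℤ) ^ (i + 1)))⁻¹ ∈ 𝐋 (i + 1) := by
  induction i with
  | zero => exact fun u _ => by simpa [commutator_def] using h u
  | succ i ih =>
  let q := QuotientGroup.mk' (𝐋 (i + 2))
  have hq : ∀ {u v : G}, ⁅u, v⁆ ∈ (𝐋 (i + 2)) → Commute (q u) (q v) := fun h =>
    commutatorElement_eq_one_iff_commute.1 (by rw [← map_commutatorElement]; exact (QuotientGroup.eq_one_iff _).2 h)
  have hc : ∀ {u : G}, u ∈ (𝐋 (i + 1)) → ∀ v, Commute (q v) (q u) := fun h v =>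
    (hq (commutator_mem_commutator h (mem_top v))).symm
  have h3 : ⁅commutator G, 𝐋 i⁆ ≤ 𝐋 (i + 2) := commutator_commutator_le_of_rotate _
    (by rw [commutator_comm ⊤]; exact le_rfl) le_rfl
  suffices H : ∀ u ∈ 𝐋 (i + 1), q (φ u) = q u ^ ((-1 : ℤ) ^ (i + 2)) from fun u hu =>
    (QuotientGroup.eq_one_iff _).1 (show q _ = 1 by rw [map_mul, map_inv, map_zpow, H u hu, mul_inv_cancel])
  intro u hu
  refine closure_induction (p := fun u _ => q (φ u) = q u ^ ((-1 : ℤ) ^ (i + 2))) ?_ (by rw [map_one, map_one, one_zpow]) ?_ ?_ hu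
  · rintro _ ⟨a, ha, g, -, rfl⟩
    have e1 : φ a = φ a * (a ^ ((-1 : ℤ) ^ (i + 1)))⁻¹ * a ^ ((-1 : ℤ) ^ (i + 1)) := by group
    have e2 : φ g = φ g * g * g ^ (-1 : ℤ) := by group
    have c1 : ∀ b ∈ 𝐋 i, ∀ g v, Commute (q v) ⁅q b, q g⁆ := fun b hb g v =>
      map_commutatorElement q b g ▸ hc (commutator_mem_commutator hb (mem_top g)) v
    have hb := (𝐋 i).zpow_mem ha ((-1 : ℤ) ^ (i + 1))
    rw [map_commutatorElement, map_commutatorElement, e1, e2, map_mul q, commutator_mul_left_of_commute (c1 _ hb _ _),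
      commutatorElement_eq_one_iff_commute.2 (hc (ih a ha) _).symm, mul_one, map_mul q,
      commutator_mul_right_of_commute (c1 _ hb _ _), commutatorElement_eq_one_iff_commute.2
        (hq (h3 (commutator_mem_commutator (h g) hb))).symm, one_mul, map_zpow q g,
      commutator_zpow_right_of_commute (c1 _ hb _ _), map_zpow, commutator_zpow_left_of_commute (c1 _ ha _ _),
      ← zpow_mul, ← pow_succ, map_commutatorElement]
  · intro u v _ hv h1 h2
    rw [map_mul, map_mul, map_mul, h1, h2, (hc hv u).mul_zpow]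
  · intro u _ h1
    rw [map_inv, map_inv, map_inv, h1, inv_zpow]

variable [Finite G]

lemma fix_or_inv {L M : Subgroup G} [M.Normal] (hML : M ≤ L) (hc : Nat.card L = 3 * Nat.card M) (φ : MulAut G)
    (hL : ∀ g ∈ L, φ g ∈ L) (hM : ∀ g, φ g ∈ M ↔ g ∈ M) (h3 : ∀ g ∈ L, g ^ 3 ∈ M) :
    (∀ g ∈ L, φ g * g⁻¹ ∈ M) ∨ ∀ g ∈ L, φ g * g ∈ M := by
  have hne : M ≠ L := fun e => by have := Nat.card_pos (α := L); rw [e] at hc; omega
  obtain ⟨t, ht, ht'⟩ := SetLike.exists_of_lt (hML.lt_of_ne hne)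
  have e := (eq_or_eq_of_card_eq_prime_mul Nat.prime_three le_sup_left (sup_le hML (zpowers_le.2 ht)) hc).resolve_left
    fun e => ht' (e.le (mem_sup_right (mem_zpowers t)))
  let q := QuotientGroup.mk' M
  have h1 : ∀ {g}, q g = 1 ↔ g ∈ M := QuotientGroup.eq_one_iff _
  have key : ∀ g ∈ L, ∃ k : ℤ, q g = q t ^ k ∧ q (φ g) = q (φ t) ^ k := fun g hg => by
    obtain ⟨m, hm, k, rfl⟩ := (mem_sup_zpowers_iff (le_normalizer_of_normal (mem_top t))).1 (e.ge hg)
    exact ⟨k, by rw [map_mul, h1.2 hm, one_mul, map_zpow],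
      by rw [map_mul, map_mul, h1.2 ((hM m).2 hm), one_mul, map_zpow, map_zpow]⟩
  obtain ⟨k, hk, -⟩ := key _ (hL t ht)
  have t3 : q t ^ (3 : ℤ) = 1 := by rw [← map_zpow]; exact h1.2 (by simpa using h3 t ht)
  rw [zpow_eq_zpow_emod k t3] at hk
  rcases (by omega : k % 3 = 0 ∨ k % 3 = 1 ∨ k % 3 = 2) with h | h | h <;> rw [h] at hk
  · exact absurd ((hM t).1 (h1.1 (hk.trans (zpow_zero _)))) ht'
  · refine .inl fun g hg => ?_
    obtain ⟨j, a1, a2⟩ := key g hg
    rw [← h1, map_mul, map_inv, a1, a2, hk, zpow_one, mul_inv_cancel]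
  · refine .inr fun g hg => ?_
    obtain ⟨j, a1, a2⟩ := key g hg
    rw [← h1, map_mul, a1, a2, hk, ← zpow_mul, ← zpow_add, show 2 * j + j = 3 * j by ring, zpow_mul, t3, one_zpow]

omit [Finite G] in
lemma apply_mem_iff (M : Subgroup G) [h : M.Characteristic] (φ : MulAut G) (g : G) : φ g ∈ M ↔ g ∈ M := by
  conv_rhs => rw [← h.fixed φ]
  rfl

theorem odd_of_maxClass {n : ℕ} (hG : Nat.card G = 3 ^ (n + 4)) (h : (𝐋 (n + 2)) ≠ ⊥) (hy : y ∈ center G)
    (ho : orderOf y = 3) (hA : ∀ φ ∈ A, φ y = y)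
    (h1 : ∀ z, (∀ φ ∈ A, φ z * z⁻¹ ∈ frattini G) → z ∈ frattini G)
    (h4 : ∀ M : Subgroup G, (∀ φ ∈ A, ∀ g, φ g * g⁻¹ ∈ M) → M = ⊤) : Odd n := by
  have : Fact (Nat.Prime 3) := ⟨Nat.prime_three⟩
  have hP := IsPGroup.of_card hG
  have hF := maxClass_frattini (n := n + 1) hG h
  have c1 := maxClass_card_lowerCentralSeries (n := n + 2) hG h (i := n) (by omega)
  have c2 := maxClass_card_lowerCentralSeries (n := n + 2) hG h (i := n + 1) (by omega)
  have c3 := maxClass_card_lowerCentralSeries (n := n + 2) hG h (i := n + 2) le_rfl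
  rw [show n + 2 - n = 2 by omega] at c1
  rw [show n + 2 - (n + 1) = 1 by omega, pow_one] at c2
  rw [Nat.sub_self, pow_zero, card_eq_one] at c3
  set C := centralizer ((𝐋 (n + 1)) : Set G)
  have hC : C.index = 3 := by
    rw [← relIndex_top_right]
    exact relIndex_centralizer_eq_of_card_sq (hP.to_subgroup ⊤) le_normalizer_of_normal c1
      fun e => h (commutator_eq_bot_iff_le_centralizer.2 (le_centralizer_iff.1 e))
  have hK := commutator_le_of_index_prime C hC
  have k1 : Nat.card (⊤ : Subgroup G) = 3 * Nat.card C := by rw [card_top, ← C.index_mul_card, hC]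
  have k2 : Nat.card C = 3 * Nat.card (commutator G) := by
    rw [card_top, hG, pow_succ'] at k1
    rw [maxClass_card_commutator (n := n + 2) hG h, ← pow_succ']
    exact (Nat.eq_of_mul_eq_mul_left (by decide) k1).symm
  have p3 : ∀ g : G, g ^ 3 ∈ commutator G := fun g => hF ▸ pow_mem_frattini hP g
  have d1 := fun φ : MulAut G => fix_or_inv le_top k1 φ (fun _ _ => mem_top _) (apply_mem_iff C φ) fun g _ => hK (p3 g)
  have d2 := fun φ : MulAut G => fix_or_inv hK k2 φ (fun g => (apply_mem_iff C φ g).2) (apply_mem_iff _ φ)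
    fun g _ => p3 g
  obtain ⟨a, ha, a1⟩ : ∃ a ∈ A, ∀ g ∈ (⊤ : Subgroup G), a g * g ∈ C := by
    by_contra! H
    have := h4 C fun φ hφ g => (d1 φ).resolve_right (by simpa using H φ hφ) g (mem_top g)
    rw [this, index_top] at hC
    omega
  obtain ⟨b, hb, b1⟩ : ∃ b ∈ A, ∀ g ∈ C, b g * g ∈ commutator G := by
    by_contra! H
    have : C ≤ commutator G := fun g hg => hF ▸ h1 g fun φ hφ => hF ▸ (d2 φ).resolve_right (by simpa using H φ hφ) g hg
    have h5 := card_le_of_le this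
    have := Nat.card_pos (α := commutator G)
    omega
  obtain ⟨c, hc, e1, e2⟩ : ∃ c ∈ A, (∀ g ∈ (⊤ : Subgroup G), c g * g ∈ C) ∧ ∀ g ∈ C, c g * g ∈ commutator G := by
    rcases d2 a with a2 | a2
    swap
    · exact ⟨a, ha, a1, a2⟩
    rcases d1 b with b2 | b2
    swap
    · exact ⟨b, hb, b2, b1⟩
    refine ⟨a * b, A.mul_mem ha hb, fun g hg => ?_, fun g hg => ?_⟩
    · have := C.mul_mem ((apply_mem_iff C a _).2 (b2 g hg)) (a1 g hg)
      simpa [mul_assoc] using this
    · have := (commutator G).mul_mem ((apply_mem_iff _ a _).2 (b1 g hg))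
        ((inferInstance : (commutator G).Normal).conj_mem' _ ((commutator G).inv_mem (a2 g hg)) g)
      simpa [mul_assoc] using this
  have e3 : ∀ g, (c ^ 3) g * g ∈ commutator G := fun g => by
    have k : ∀ {g}, g ∈ commutator G ↔ Abelianization.of g = 1 := by
      rw [← Abelianization.ker_of]; exact MonoidHom.mem_ker
    let f := Abelianization.map (c : G →* G)
    have f0 : ∀ g, Abelianization.of (c g) = f (Abelianization.of g) := fun _ => rfl
    have f1 := k.1 (e2 _ (e1 g (mem_top g)))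
    have f2 := k.1 (p3 (c g * g))
    rw [k, map_mul, pow_three, MulAut.mul_apply, MulAut.mul_apply, f0, f0, f0]
    rw [map_mul, f0] at f1
    rw [map_pow] at f2
    have f3 : f (Abelianization.of g) = Abelianization.of (c g * g) * (Abelianization.of g)⁻¹ := by
      rw [map_mul, f0, mul_inv_cancel_right]
    generalize Abelianization.of (c g * g) = u at f1 f2 f3
    rw [mul_eq_one_iff_eq_inv] at f1
    simp only [f3, f1, map_mul, map_inv, ← f2, pow_three, mul_inv_rev, inv_inv]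
    simp only [mul_comm, mul_left_comm, mul_inv_cancel, mul_one]
  have hyL : y ∈ 𝐋 (n + 2) := (eq_of_le_of_card_ge (commutator_top_right_eq_bot_iff_le_center.1 c3)
    (by rw [c2, maxClass_card_center (n := n + 1) hG h])).ge hy
  have := sign_lcs _ e3 _ y hyL
  rw [c3, mem_bot, hA _ (A.pow_mem hc 3)] at this
  by_contra hn
  rw [Odd.neg_one_pow (by have := Nat.not_odd_iff_even.1 hn; grind), zpow_neg_one, inv_inv, ← sq] at this
  exact absurd (ho ▸ orderOf_dvd_of_pow_eq_one this) (by decide)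

variable [hp : Fact p.Prime]

lemma extraspecial_of_cube (hG : Nat.card G = p ^ 3) (hr : PRankLE p 2 G) (hm : ¬ IsMetacyclic G) :
    IsExtraspecial p G ∧ Nat.card G = p ^ 3 ∧ ∀ g : G, g ^ p = 1 := by
  have hP := IsPGroup.of_card hG
  have he : ∀ g : G, g ^ p = 1 := fun g => by
    by_contra hg
    refine hm (isMetacyclic_iff_exists.2 ?_)
    by_cases ht : zpowers g = ⊤
    · exact ⟨g, g, le_normalizer (mem_zpowers g), by simp [ht]⟩
    obtain ⟨M, h1, _, h2⟩ := exists_normal_index_eq_of_ne_top hP ht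
    obtain ⟨k, hk⟩ := IsPGroup.iff_orderOf.1 hP g
    have h3 := M.index_mul_card
    rw [h2, hG, pow_succ'] at h3
    obtain rfl : zpowers g = M := eq_of_le_of_card_ge h1 (by
      rw [Nat.eq_of_mul_eq_mul_left hp.out.pos h3, Nat.card_zpowers, hk]
      refine Nat.pow_le_pow_right hp.out.pos (not_lt.1 fun e => hg (orderOf_dvd_iff_pow_eq_one.1 ?_))
      rw [hk]
      simpa using pow_dvd_pow p (Nat.lt_succ_iff.1 e))
    obtain ⟨b, -, hb⟩ := SetLike.exists_of_lt (lt_top_iff_ne_top.2 ht)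
    exact ⟨g, b, le_normalizer_of_normal (mem_top b), (isCoatom_of_index_prime (h2 ▸ hp.out)).2 _
      (lt_of_le_of_ne le_sup_left fun e => hb (e.ge (mem_sup_right (mem_zpowers b))))⟩
  have hc : ¬ IsMulCommutative (⊤ : Subgroup G) := fun h => by
    have := pRankLE_iff.1 hr ⊤ ⟨h, fun g _ => he g⟩
    rw [card_top, hG] at this
    exact absurd ((Nat.pow_le_pow_iff_right hp.out.one_lt).1 this) (by decide)
  obtain ⟨h1, h2⟩ := center_of_card_cube (card_top.trans hG) hc
  rw [top_inf_eq, coe_top, centralizer_univ] at h1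
  refine ⟨⟨⟨hP, ?_, h1.symm⟩, h1 ▸ h2⟩, hG, he⟩
  rw [h1]
  exact le_antisymm (frattini_le_of_commutator_le_of_pow_mem (p := p) le_rfl fun x => he x ▸ one_mem _)
    (commutator_le_frattini hP)

theorem structure_of_fixed (hp2 : p ≠ 2) (hG : IsPGroup p G) (hr : PRankLE p 2 G) (hm : ¬ IsMetacyclic G)
    (hy : y ∈ center G) (ho : orderOf y = p) (hA : ∀ φ ∈ A, φ y = y)
    (h1 : ∀ z, (∀ φ ∈ A, φ z * z⁻¹ ∈ frattini G) → z ∈ frattini G)
    (h2 : (∀ z ∈ center G, z ^ p = 1 → ∀ φ ∈ A, φ z = z) → ∀ z ∈ center G, ∀ φ ∈ A, φ z = z)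
    (h4 : ∀ M : Subgroup G, (∀ φ ∈ A, ∀ g, φ g * g⁻¹ ∈ M) → M = ⊤) :
    (IsExtraspecial p G ∧ Nat.card G = p ^ 3 ∧ ∀ g : G, g ^ p = 1) ∨ (p = 3 ∧ ∃ k : ℕ, 2 ≤ k ∧
      Nat.card G = 3 ^ (2 * k + 1) ∧ ∃ _ : Group.IsNilpotent G, Group.nilpotencyClass G = 2 * k) := by
  rcases rank_two_cases hp2 hG hr with h | ⟨rfl, n, h, h'⟩ | ⟨V, x, v, z, h, hx, hxp, hv, hz, ht, hV, h5, h6⟩
  · exact absurd h hm
  · rcases n with _ | n
    · exact .inl (extraspecial_of_cube h hr hm)
    obtain ⟨k, rfl⟩ := odd_of_maxClass h h' hy ho hA h1 h4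
    exact .inr ⟨rfl, k + 2, by omega, h, hG.isNilpotent, (maxClass_iff (n := 2 * k + 1 + 2) h).2 h'⟩
  refine .inl (extraspecial_of_cube ?_ hr hm)
  have := h.nV
  have hZ : ⁅V, (⊤ : Subgroup G)⁆ ≤ commutator G := commutator_mono le_top le_rfl
  have hO : ∀ u ∈ center G, u ^ p = 1 → u ∈ ⁅V, (⊤ : Subgroup G)⁆ := fun u hu e =>
    h.memZ hx (h.hA u (center_le_centralizer _ hu) e) (mem_center_iff.1 hu x)
  have hc := h2 fun u hu e φ hφ => by
    obtain ⟨k, rfl⟩ := (h.Z_eq hx (hO y hy (ho ▸ pow_orderOf_eq_one y)) fun e => hp.out.one_lt.ne (by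
      rw [← ho, e, orderOf_one])).ge (hO u hu e)
    rw [map_zpow, hA φ hφ]
  have hzF : z ∈ frattini G := h1 z fun φ hφ => by
    by_cases e : ⁅x, z⁆ ∈ ⁅V, (⊤ : Subgroup G)⁆
    · rw [hc z (mem_center_of ht hz (Commute.refl z) (commutatorElement_eq_one_iff_commute.1 (h6 e))) φ hφ,
        mul_inv_cancel]
      exact one_mem _
    have hVe : V = commutator G := by
      refine le_antisymm ?_ ?_
      · rw [← (eq_or_eq_of_card_eq_prime_mul hp.out le_sup_left (sup_le (h.Z_lt hx).le (zpowers_le.2 h5))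
          (by rw [h.cV, h.cardZ hx, sq])).resolve_left fun e' => e (e'.le (mem_sup_right (mem_zpowers _)))]
        exact sup_le hZ (zpowers_le.2 (commutator_mem_commutator (mem_top _) (mem_top _)))
      · have e1 : V ⊔ (zpowers x ⊔ zpowers z) = ⊤ := by rw [sup_comm (zpowers x), ← sup_assoc, ht]
        rw [commutator_def]
        nth_rw 1 [← e1]
        refine Core.commutator_sup_le le_normalizer_of_normal le_normalizer_of_normal (commutator_le_left _ _) ?_
        rw [commutator_comm, ← e1]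
        exact Core.commutator_sup_le le_normalizer_of_normal le_normalizer_of_normal (commutator_le_left _ _)
          (commutator_le_of_pair rfl le_normalizer_of_normal h5)
    have : V.Characteristic := hVe ▸ inferInstance
    have hz' := (apply_mem_iff _ φ z).2 hz
    refine commutator_le_frattini hG (hVe.le (h.semi hz' hz ?_))
    rw [← map_pow]
    refine hc _ (mem_center_of ht (pow_mem hz p) ((Commute.refl z).pow_right p)
      (commutatorElement_eq_one_iff_commute.1 ?_)) φ hφ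
    rw [commutator_pow_right_of_commute (h.comm h5 hz).symm, h.eV.2 _ h5]
  have e : V ⊔ zpowers x = ⊤ := frattini_nongenerating (eq_top_iff.2 (ht.ge.trans (sup_le (sup_le
    (le_sup_left.trans le_sup_left) ((zpowers_le.2 hzF).trans le_sup_right)) (le_sup_right.trans le_sup_left))))
  rw [← card_top, ← e, card_sup_zpowers (le_normalizer_of_normal (mem_top x)) (fun e => hx (h.le e)) (hxp ▸ one_mem _),
    h.cV, ← pow_succ']

/-- In `p`-rank two (`p` odd) the normaliser of a Sylow `p`-subgroup controls transfer. -/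
theorem inf_commutator_eq (hp2 : p ≠ 2) (S : Sylow p G) (hr : PRankLE p 2 (S : Subgroup G)) :
    (S : Subgroup G) ⊓ commutator G =
      (S : Subgroup G) ⊓ ⁅normalizer ((S : Subgroup G) : Set G), normalizer ((S : Subgroup G) : Set G)⁆ := by
  by_contra hne
  obtain ⟨x, hx, z, hz, W, hW, -, h⟩ := Agent.S2792.result S S ⟨le_rfl, fun g hg =>
    eq_of_le_of_card_ge hg (Coprime.card_map_conj g _).ge⟩ hne
  have hS := S.isPGroup'
  have := normal_of_isCoatom hS hW
  have hn := Core.le_normalizer_map_subtype W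
  have hF : ((frattini W).map W.subtype).map (S : Subgroup G).subtype =
      (frattini (W.map (S : Subgroup G).subtype)).map (W.map (S : Subgroup G).subtype).subtype := by
    rw [map_subtype_frattini_eq (hS.to_subgroup W), map_subtype_frattini_eq (hS.to_le (map_subtype_le W)),
      Subgroup.map_sup, map_commutator, map_powerClosure]
  rw [hF] at h
  have hi := index_eq_of_isCoatom hS hW
  have hp' : ∀ g ∈ (S : Subgroup G), g ^ p ∈ W.map (S : Subgroup G).subtype := fun g hg =>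
    mem_map_of_mem _ (x := ⟨g, hg⟩ ^ p) (hi ▸ pow_index_mem W _)
  have hc : ⁅(S : Subgroup G), (S : Subgroup G)⁆ ≤ W.map (S : Subgroup G).subtype :=
    map_subtype_commutator (S : Subgroup G) ▸ map_mono (commutator_le_of_index_prime W hi)
  have hcd : Nat.card (S : Subgroup G) = p * Nat.card (W.map (S : Subgroup G).subtype) := by
    rw [card_subtype, ← W.index_mul_card, hi]
  have hWS := map_subtype_le W
  generalize W.map (S : Subgroup G).subtype = M at *
  have n1 := hn.trans (normalizer_le_normalizer_map_subtype (frattini M))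
  have hq := quad_frattini hp2 hS hWS hn (pRankLE_of_le hWS hr)
  have e : ∀ y : G, y⁻¹ * z⁻¹ * y * z = ⁅y⁻¹, z⁻¹⁆ := fun y => by group
  have h2 : (fun y : G => y⁻¹ * z⁻¹ * y * z)^[2] x ∈ (frattini M).map M.subtype := by
    change (x⁻¹ * z⁻¹ * x * z)⁻¹ * z⁻¹ * (x⁻¹ * z⁻¹ * x * z) * z ∈ _
    by_cases hzM : z ∈ M
    · rw [e, e]
      exact commutator_le_map_subtype_frattini (hS.to_le hWS) (commutator_mem_commutator
        (inv_mem (hc (commutator_mem_commutator (inv_mem hx) (inv_mem hz)))) (inv_mem hzM))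
    obtain ⟨m, hm, k, rfl⟩ := (mem_sup_zpowers_iff (hn hz)).1 ((eq_of_le_of_card_ge (sup_le hWS (zpowers_le.2 hz))
      (by rw [card_sup_zpowers (hn hz) hzM (hp' z hz), hcd])).ge hx)
    rw [e, show (m * z ^ k)⁻¹ * z⁻¹ * (m * z ^ k) * z = ⁅(z ^ k)⁻¹ * m⁻¹ * z ^ k, z⁻¹⁆ by group]
    exact hq (commutator_mem_commutator (inv_mem (commutator_mem_commutator
      (Coprime.conj_mem_of_mem_normalizer' (hn (zpow_mem hz k)) (inv_mem hm)) (inv_mem hz))) (inv_mem hz))
  obtain ⟨j, hj⟩ := Nat.exists_eq_add_of_le' (show 2 ≤ p - 1 by have := hp.out.two_le; omega)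
  rw [hj, Function.iterate_add_apply] at h
  refine h (Function.Iterate.rec (· ∈ (frattini M).map M.subtype) h2 (fun y hy => ?_) j)
  rw [e]
  exact le_normalizer_iff_commutator_le_left.1 n1 (commutator_mem_commutator (inv_mem hy) (inv_mem hz))

theorem sylow_structure (hp2 : p ≠ 2) (S : Sylow p G) (hr : PRankLE p 2 (S : Subgroup G))
    (hS : (S : Subgroup G) ≤ commutator G) (hy : y ∈ (S : Subgroup G)) (ho : orderOf y = p)
    (hN : normalizer ((S : Subgroup G) : Set G) ≤ centralizer {y}) :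
    (IsExtraspecial p (S : Subgroup G) ∧ Nat.card (S : Subgroup G) = p ^ 3 ∧ ∀ g : (S : Subgroup G), g ^ p = 1) ∨
      (p = 3 ∧ ∃ k : ℕ, 2 ≤ k ∧ Nat.card (S : Subgroup G) = 3 ^ (2 * k + 1) ∧
        ∃ _ : Group.IsNilpotent (S : Subgroup G), Group.nilpotencyClass (S : Subgroup G) = 2 * k) := by
  have hP := S.isPGroup'
  have h0 := (inf_eq_left.2 hS).symm.trans (inf_commutator_eq hp2 S hr)
  have hi := Core.coprime_iff_not_dvd.2 (Transfer.sylow_not_dvd_relIndex S (le_normalizer (H := (S : Subgroup G))))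
  obtain ⟨B, b1, b2, b3, b4⟩ := Coprime.exists_complement (le_normalizer (H := (S : Subgroup G))) le_rfl
    (Coprime.coprime_card_of_isPGroup hP hi).symm
  rw [← b4] at hi
  have hc := Coprime.coprime_card_of_isPGroup hP hi
  have hPB := Coprime.commutator_eq_of_le_commutator_sup (Coprime.isSolvable_of_isPGroup hP) b1 b2
    (by rw [b3]; exact h0.le.trans inf_le_right)
  have hyB : y ∈ centralizer (B : Set G) := fun b hb => mem_centralizer_singleton_iff.1 (hN (b1 hb))
  let ρ := (S : Subgroup G).normalizerMonoidHom.comp (inclusion b1)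
  have hρ : ∀ (b : B) (g : (S : Subgroup G)), (ρ b g : G) = b * g * (b : G)⁻¹ := fun _ _ => rfl
  refine structure_of_fixed (A := ρ.range) (y := ⟨y, hy⟩) hp2 hP hr (fun hm => ?_) (mem_center_iff.2 fun g =>
    Subtype.ext (mem_centralizer_singleton_iff.1 (hN (le_normalizer g.2)))) ((orderOf_coe _).symm.trans ho)
    ?_ (fun z h => ?_) (fun h z hz => ?_) fun M h => ?_
  · have := (metacyclic_coprime_action hp2 hP hm b1 hi).2.2.1
    rw [hPB] at this
    rw [mem_bot.1 (this.le ⟨hy, hy, hyB⟩), orderOf_one] at ho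
    exact hp.out.one_lt.ne ho
  · rintro _ ⟨b, rfl⟩
    exact Subtype.ext (by rw [hρ, hyB b b.2, mul_inv_cancel_right])
  · obtain ⟨n, hn, h1⟩ := Coprime.exists_mul_mem_centralizer' (k := z)
      (b1.trans (normalizer_le_normalizer_map_subtype (frattini (S : Subgroup G))))
      (hc.coprime_dvd_right (card_dvd_of_le (map_subtype_le _)))
      (.inr (Coprime.isSolvable_of_isPGroup (hP.to_le (map_subtype_le _))))
      fun b hb => mem_map_of_mem _ (h _ ⟨⟨b, hb⟩, rfl⟩)
    have := commutator_le_map_subtype_frattini hP (Coprime.inf_centralizer_le_commutator_of_commutator_eq b1 hc hPB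
      ⟨mul_mem (map_subtype_le _ hn) z.2, h1⟩)
    exact (mem_map_iff_mem (S : Subgroup G).subtype_injective).1 ((mul_mem_cancel_left hn).1 this)
  · rintro _ ⟨b, rfl⟩
    have := le_centralizer_of_le_centralizer_omegaOne hp2 (hP.to_le (map_subtype_le (center (S : Subgroup G))))
      (b1.trans (normalizer_le_normalizer_map_subtype _)) hi (le_centralizer_iff.1 (omegaOne_le_iff.2 ?_)) b.2 _
      (mem_map_of_mem _ hz)
    · exact Subtype.ext (by rw [hρ, mul_inv_eq_iff_eq_mul]; exact this.symm)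
    rintro _ ⟨u, hu, rfl⟩ e a ha
    exact mul_inv_eq_iff_eq_mul.1 (congrArg Subtype.val (h u hu (Subtype.ext e) _ ⟨⟨a, ha⟩, rfl⟩))
  · refine eq_top_iff.2 fun g _ => (mem_map_iff_mem (S : Subgroup G).subtype_injective).1 ?_
    refine (commutator_comm B S).ge.trans (commutator_le.2 fun b hb g hg => ?_) (hPB.ge g.2)
    exact mem_map_of_mem _ (h _ ⟨⟨b, hb⟩, rfl⟩ ⟨g, hg⟩)

end Cfsg.Lib.ZP
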